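import Cfsg.Agent.H963.RIM.Own
import Cfsg.Agent.H665.RIM.Defs
import Cfsg.Agent.H279.OZ.Kaw
import Cfsg.Agent.H905.DCWrap
import Cfsg.Agent.H948.Ppd.SL
import Cfsg.Agent.H225.PPow.Rgd
import Cfsg.Agent.H115.HC.RgdCusp
import Cfsg.Agent.H769.Kaw.Step

/-!
# S4816, RIM-L-OWN: groups of Lie type of rank at least two in their own characteristic (helper963)

* `nball_of_par` : `S` with a root group datum of characteristic `p`, `Q ⋊ SL_2(E)` in `S` with `|Q| |E| = |S|_p`;
* `nball_of_nd` : the form with a root group datum of `P`, `P → S` onto with central kernel of order prime to `p`, and a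
  homomorphism `SL_2(E) → P` at a node, with trivial kernel in `S`.
-/

set_option autoImplicit false

namespace Cfsg.Agent.H963.RIM

open Cfsg Cfsg.Agent.H665.RIM Cfsg.Agent.Nodes.RGDLift Cfsg.Agent.H911.SLTwo Cfsg.Agent.H948.Ppd
open CoxeterSystem Cfsg.Agent.ChevalleyStructure.CoxeterGeom Cfsg.Agent.Tits.Roots Cfsg.Agent.Tits.Core
  Cfsg.Agent.Nodes.Reps Cfsg.Agent.Nodes.BNOf Cfsg.Agent.Nodes.LeviDec Cfsg.Agent.Nodes.Bruhat
  Cfsg.Agent.Nodes.RGDChev Cfsg.Agent.Nodes.StabComb Cfsg.Agent.Nodes.OppDec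
open scoped MatrixGroups

universe u v w

theorem isPGroup_U {E : Type*} [Field E] {p : ℕ} [CharP E p] (t : E) : (U t : SL(2, E)) ^ p = 1 := by
  rw [U_pow, CharP.cast_eq_zero, zero_mul, U_zero]

theorem isPGroup_Lo {E : Type*} [Field E] {p : ℕ} [CharP E p] (t : E) : (Lo t : SL(2, E)) ^ p = 1 := by
  have h2 : ∀ n : ℕ, (Lo t : SL(2, E)) ^ n = Lo (n * t) := by
    intro n
    induction n with
    | zero => rw [pow_zero, Nat.cast_zero, zero_mul, Lo_zero]
    | succ n ih => rw [pow_succ, ih, Lo_mul, Nat.cast_succ]; congr 1; ring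
  rw [h2, CharP.cast_eq_zero, zero_mul, Lo_zero]

section core

variable {Y : Type u} {S : Type u} [Group Y] [Finite Y] [Group S] [Finite S] {p : ℕ} [hp : Fact p.Prime]
  {E : Type w} [Field E] [Finite E] [CharP E p]

/-- counting the `p`-elements of `K = Q ⋊ SL_2(E)` -/
theorem card_lt_pel {Q : Subgroup Y} (hQ : IsPGroup p Q) (σ : SL(2, E) →* Y) (hn : ∀ x, σ x ∈ Subgroup.normalizer (Q : Set Y))
    (hd : ∀ x, σ x ∈ Q → x = 1) :
    Nat.card Q * Nat.card E < Nat.card {k : (σ.range ⊔ Q : Subgroup Y) // ∃ j : ℕ, orderOf k = p ^ j} := by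
  classical
  set K : Subgroup Y := σ.range ⊔ Q with hK
  -- the upper `p`-group
  let A : Subgroup Y :=
    { carrier := {y | ∃ t : E, σ (U t) = y}
      one_mem' := ⟨0, by rw [U_zero, map_one]⟩
      mul_mem' := by
        rintro _ _ ⟨a, rfl⟩ ⟨b, rfl⟩
        exact ⟨a + b, by rw [← U_mul, map_mul]⟩
      inv_mem' := by
        rintro _ ⟨a, rfl⟩
        refine ⟨-a, ?_⟩
        rw [eq_inv_iff_mul_eq_one, ← map_mul, U_mul, neg_add_cancel, U_zero, map_one] }
  have hA : IsPGroup p A := by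
    rintro ⟨_, t, rfl⟩
    refine ⟨1, Subtype.ext ?_⟩
    show σ (U t) ^ p ^ 1 = 1
    rw [pow_one, ← map_pow, isPGroup_U, map_one]
  have hAQ : IsPGroup p (A ⊔ Q : Subgroup Y) := by
    refine IsPGroup.to_sup_of_normal_right' hA hQ ?_
    rintro _ ⟨t, rfl⟩
    exact hn _
  have hAK : A ⊔ Q ≤ K := by
    refine sup_le ?_ le_sup_right
    rintro _ ⟨t, rfl⟩
    exact (le_sup_left : σ.range ≤ K) ⟨_, rfl⟩
  have hpel : ∀ (y : Y) (hy : y ∈ K) (k : ℕ), y ^ p ^ k = 1 → ∃ j : ℕ, orderOf (⟨y, hy⟩ : K) = p ^ j := by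
    intro y hy k hk
    have h1 : (⟨y, hy⟩ : K) ^ p ^ k = 1 := Subtype.ext hk
    obtain ⟨j, -, hj⟩ := (Nat.dvd_prime_pow hp.out).1 (orderOf_dvd_of_pow_eq_one h1)
    exact ⟨j, hj⟩
  have hmemAQ : ∀ x : E × Q, σ (U x.1) * (x.2 : Y) ∈ A ⊔ Q := fun x =>
    mul_mem ((le_sup_left : A ≤ A ⊔ Q) ⟨_, rfl⟩) ((le_sup_right : Q ≤ A ⊔ Q) x.2.2)
  have hLo : σ (Lo 1) ∈ K := (le_sup_left : σ.range ≤ K) ⟨_, rfl⟩
  let F : Option (E × Q) → {k : K // ∃ j : ℕ, orderOf k = p ^ j} := fun o =>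
    o.elim ⟨⟨σ (Lo 1), hLo⟩, hpel _ hLo 1 (by rw [pow_one, ← map_pow, isPGroup_Lo, map_one])⟩
      (fun x => ⟨⟨σ (U x.1) * (x.2 : Y), hAK (hmemAQ x)⟩, by
        obtain ⟨k, hk⟩ := hAQ ⟨_, hmemAQ x⟩
        exact hpel _ _ k (by simpa using congrArg Subtype.val hk)⟩)
  have hF : Function.Injective F := by
    have h0 : ∀ x : E × Q, F none ≠ F (some x) := by
      intro x hx
      have h1 : σ (Lo 1) = σ (U x.1) * (x.2 : Y) := congrArg (fun z => ((z.1 : K) : Y)) hx
      have h2 : σ ((U x.1)⁻¹ * Lo 1) ∈ Q := by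
        rw [map_mul, h1, map_inv, inv_mul_cancel_left]
        exact x.2.2
      have h3 := hd _ h2
      rw [inv_mul_eq_one] at h3
      have h4 := congrArg (fun z : SL(2, E) => z.1 1 0) h3
      simp only [U10, Lo10] at h4
      exact one_ne_zero h4.symm
    intro o o' hoo
    rcases o with _ | x <;> rcases o' with _ | x'
    · rfl
    · exact absurd hoo (h0 x')
    · exact absurd hoo.symm (h0 x)
    · have h1 : σ (U x.1) * (x.2 : Y) = σ (U x'.1) * (x'.2 : Y) := congrArg (fun z => ((z.1 : K) : Y)) hoo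
      have h2 : σ ((U x'.1)⁻¹ * U x.1) ∈ Q := by
        rw [map_mul, map_inv]
        have h3 : (σ (U x'.1))⁻¹ * σ (U x.1) = (x'.2 : Y) * (x.2 : Y)⁻¹ := by
          rw [eq_mul_inv_iff_mul_eq, mul_assoc, h1, inv_mul_cancel_left]
        rw [h3]
        exact mul_mem x'.2.2 (inv_mem x.2.2)
      have h3 := hd _ h2
      rw [inv_mul_eq_one] at h3
      have h4 := congrArg (fun z : SL(2, E) => z.1 0 1) h3
      simp only [U01] at h4
      have h5 : (x.2 : Y) = x'.2 := by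
        rw [h4] at h1
        exact mul_left_cancel h1
      exact congrArg some (Prod.ext h4.symm (Subtype.ext h5))
  have h1 := Nat.card_le_card_of_injective F hF
  have h2 : Nat.card (Option (E × Q)) = Nat.card (E × Q) + 1 := Finite.card_option
  rw [h2, Nat.card_prod, mul_comm (Nat.card E)] at h1
  omega

/-- **Theorem C.** -/
theorem nball_of_par (hS : HasRGD p S) {Q : Subgroup S} (hQ : IsPGroup p Q) (σ' : SL(2, E) →* S)
    (hn : ∀ x, σ' x ∈ Subgroup.normalizer (Q : Set S)) (hd : ∀ x, σ' x ∈ Q → x = 1)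
    (hc : p ^ (Nat.card S).factorization p = Nat.card Q * Nat.card E) : NBall p S := by
  intro m hm hpm Y _ _ π hπ hker hperf hcard l hl
  have hpk : ¬ p ∣ Nat.card π.ker := by rwa [hcard]
  have hcop : (Nat.card π.ker).Coprime p := ((Nat.Prime.coprime_iff_not_dvd hp.out).2 hpk).symm
  have hY : HasRGD p Y := by
    obtain ⟨l, M, A, h, T, n, X, hW, R, hX⟩ := hS
    obtain ⟨n, -, R', hX'⟩ := Cfsg.Agent.H905.DC.exists_rgd_lift hperf hker hcop hπ R hX
    exact ⟨l, M, A, h, _, n, _, hW, R', hX'⟩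
  have hK := Cfsg.Agent.H279.OZ.kaw_of_hasRGD hp.out hY
  obtain ⟨σ, hσ⟩ := exists_lift_hom hker hcop hπ σ'
  set Qh := lft p π Q with hQh
  have hQp : IsPGroup p Qh := isPGroup_lft hker hQ
  have hnh : ∀ x, σ x ∈ Subgroup.normalizer (Qh : Set Y) := by
    intro x
    rw [mem_normalizer_iff_cj, hQh, cj_lft, hσ, mem_normalizer_iff_cj.1 (hn x)]
  have hmemQ : ∀ y ∈ Qh, π y ∈ Q := fun y hy => ((mem_lft hker hQ).1 hy).1
  have hdh : ∀ x, σ x ∈ Qh → x = 1 := by
    intro x hx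
    refine hd x ?_
    rw [← hσ]
    exact hmemQ _ hx
  have hcQ : Nat.card Qh = Nat.card Q := by
    refine Nat.card_congr (Equiv.ofBijective (fun y : Qh => (⟨π y, hmemQ _ y.2⟩ : Q)) ⟨?_, ?_⟩)
    · intro a b hab
      have h1 : π a = π b := congrArg Subtype.val hab
      have h2 : ((a : Y)⁻¹ * b) ∈ Qh := mul_mem (inv_mem a.2) b.2
      have h3 := eq_one_of_mem_lft hker hcop hQ h2 (by rw [map_mul, map_inv, h1, inv_mul_cancel])
      exact Subtype.ext (inv_mul_eq_one.1 h3)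
    · intro y
      have h1 : (y : S) ∈ Qh.map π := by rw [hQh, map_lft hker hcop hπ hQ]; exact y.2
      obtain ⟨x, hx, hxy⟩ := h1
      exact ⟨⟨x, hx⟩, Subtype.ext hxy⟩
  have hcY : (Nat.card Y).factorization p = (Nat.card S).factorization p := by
    have h1 : Nat.card Y = Nat.card π.ker * Nat.card S := by
      rw [← Subgroup.card_mul_index π.ker, Subgroup.index_ker, MonoidHom.range_eq_top.2 hπ]
      congr 1
      exact Nat.card_congr Subgroup.topEquiv.toEquiv
    rw [h1, Nat.factorization_mul Nat.card_pos.ne' Nat.card_pos.ne', Finsupp.add_apply,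
      Nat.factorization_eq_zero_of_not_dvd hpk, zero_add]
  refine exists_dvd_of_kaw hK hker hpk l (K := σ.range ⊔ Qh) ?_ ?_
  · intro z hz hz1
    have h1 : (z : Y) ∈ ((σ.range ⊔ Qh : Subgroup Y) : Set Y) := hz
    rw [Subgroup.coe_mul_of_left_le_normalizer_right _ _ (by rintro _ ⟨x, rfl⟩; exact hnh x), Set.mem_mul] at h1
    obtain ⟨_, ⟨x, rfl⟩, v, hv, rfl⟩ := h1
    have h2 : π (σ x) * π v = 1 := by rw [← map_mul]; exact MonoidHom.mem_ker.1 hz1
    have h3 : σ' x ∈ Q := by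
      rw [← hσ, eq_inv_of_mul_eq_one_left h2]
      exact inv_mem (hmemQ _ hv)
    have h4 := hd x h3
    subst h4
    rw [map_one, map_one, one_mul] at h2
    rw [map_one, one_mul]
    exact eq_one_of_mem_lft hker hcop hQ hv h2
  · rw [hcY, hc, ← hcQ]
    exact card_lt_pel hQp σ hnh hdh

end core

section node

variable {I W : Type*} [Fintype I] [DecidableEq I] [Group W] [Finite W] {M : CoxeterMatrix I}
  {cs : CoxeterSystem M W} {A : I → I → ℤ} {h : IsCartan M A} {p : ℕ} [hp : Fact p.Prime]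
  {P : Type v} {S : Type u} [Group P] [Finite P] [Group S] [Finite S] {T : Subgroup P} {n : I → P}
  {X : (I → ℤ) → Subgroup P}

/-- **Theorem D.** -/
theorem nball_of_nd (R : RGD cs h p T n X) (hG : GG cs h T X = ⊤) (hS : HasRGD p S)
    (π0 : P →* S) (hs : Function.Surjective π0) (hz : π0.ker ≤ Subgroup.center P)
    (hcop : (Nat.card π0.ker).Coprime p) {i : I} {E : Type w} [Field E] [Finite E] [CharP E p]
    (σ0 : SL(2, E) →* P) (hup : ∀ t, σ0 (U t) ∈ X (sr i)) (hup' : ∀ y ∈ X (sr i), ∃ t, σ0 (U t) = y)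
    (hlo : ∀ t, σ0 (Lo t) ∈ X (-sr i)) (hinj : ∀ x, π0 (σ0 x) = 1 → x = 1) : NBall p S := by
  classical
  set V := VJ cs h X {i} with hV
  have hUp : IsPGroup p (RGD.Sup X (RGD.Pos cs h)) := R.isPGroup_Upos
  have hVp : IsPGroup p V := hUp.to_le (VJ_le_U _)
  have hpk : ¬ p ∣ Nat.card π0.ker := (Nat.Prime.coprime_iff_not_dvd hp.out).1 hcop.symm
  -- the Levi subgroup
  have hLJ : ∀ x, σ0 x ∈ LJ cs h T X {i} := by
    intro x
    have h1 := mem_closure_SL x
    refine (Subgroup.closure_le ((LJ cs h T X {i}).comap σ0)).2 ?_ h1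
    rintro _ (⟨t, rfl⟩ | ⟨t, rfl⟩)
    · exact X_le_LJ (PosJ_subset _ (sr_mem_PosJ (Set.mem_singleton i))) (hup t)
    · exact X_le_LJ (RootsJ.neg (PosJ_subset _ (sr_mem_PosJ (Set.mem_singleton i)))) (hlo t)
  -- `p`-elements
  have hpker : ∀ v ∈ V, ∀ x, π0 v = π0 (σ0 x) → v = σ0 x := by
    intro v hv x hvx
    obtain ⟨k, hk⟩ := hVp ⟨v, hv⟩
    have hk' : v ^ p ^ k = 1 := by simpa using congrArg Subtype.val hk
    have h1 : (σ0 x)⁻¹ * v ∈ π0.ker := by
      rw [MonoidHom.mem_ker, map_mul, map_inv, hvx, inv_mul_cancel]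
    have h2 : x ^ p ^ k = 1 := by
      apply hinj
      rw [map_pow, map_pow, ← hvx, ← map_pow, hk', map_one]
    have h3 : Commute (σ0 x)⁻¹ ((σ0 x)⁻¹ * v) := Subgroup.mem_center_iff.1 (hz h1) _
    have h4 : ((σ0 x)⁻¹ * v) ^ p ^ k = 1 := by
      have h5 : Commute (σ0 x) ((σ0 x)⁻¹ * v) := Subgroup.mem_center_iff.1 (hz h1) _
      have h6 := h5.mul_pow (p ^ k)
      rw [mul_inv_cancel_left, hk', ← map_pow, h2, map_one, one_mul] at h6
      exact h6.symm
    have h5 := eq_one_of_ker (f := π0) hcop (MonoidHom.mem_ker.1 h1) h4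
    exact (inv_mul_eq_one.1 h5).symm
  have hVinj : ∀ v ∈ V, π0 v = 1 → v = 1 := by
    intro v hv h1
    have h2 := hpker v hv 1 (by rw [map_one, map_one, h1])
    rwa [map_one] at h2
  refine nball_of_par (E := E) hS (Q := V.map π0) (hVp.map π0) (π0.comp σ0) ?_ ?_ ?_
  · intro x
    have h1 := LJ_le_normalizer_VJ R {i} (hLJ x)
    have h2 := Subgroup.le_normalizer_map (H := V) π0 ⟨_, h1, rfl⟩
    exact h2
  · rintro x ⟨v, hv, hvx⟩
    have h1 : v = σ0 x := hpker v hv x hvx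
    have h2 : v ∈ LJ cs h T X {i} ⊓ VJ cs h X {i} := ⟨by rw [h1]; exact hLJ x, hv⟩
    rw [LJ_inf_VJ R] at h2
    refine hinj x ?_
    rw [← h1, Subgroup.mem_bot.1 h2, map_one]
  · have h1 := H769.Kaw.card_U R ({i} : Set I)
    rw [Cfsg.Agent.H115.HC.UJ_single] at h1
    have h2 : Nat.card (X (sr i)) = Nat.card E := by
      symm
      refine Nat.card_congr (Equiv.ofBijective (fun t : E => (⟨σ0 (U t), hup t⟩ : X (sr i))) ⟨?_, ?_⟩)
      · intro a b hab
        have h3 : σ0 (U a) = σ0 (U b) := congrArg Subtype.val hab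
        have h4 : (U a)⁻¹ * U b = (1 : SL(2, E)) := by
          apply hinj
          rw [map_mul, map_inv, h3, inv_mul_cancel, map_one]
        rw [inv_mul_eq_one] at h4
        have h5 := congrArg (fun z : SL(2, E) => z.1 0 1) h4
        simpa only [U01] using h5
      · rintro ⟨y, hy⟩
        obtain ⟨t, ht⟩ := hup' y hy
        exact ⟨t, Subtype.ext ht⟩
    have h3 : Nat.card (V.map π0) = Nat.card V := by
      symm
      refine Nat.card_congr (Equiv.ofBijective (fun v : V => (⟨π0 v, v, v.2, rfl⟩ : V.map π0)) ⟨?_, ?_⟩)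
      · intro a b hab
        have h3 : π0 a = π0 b := congrArg Subtype.val hab
        have h4 := hVinj ((a : P)⁻¹ * b) (mul_mem (inv_mem a.2) b.2) (by rw [map_mul, map_inv, h3, inv_mul_cancel])
        exact Subtype.ext (inv_mul_eq_one.1 h4)
      · rintro ⟨_, v, hv, rfl⟩
        exact ⟨⟨v, hv⟩, rfl⟩
    have h4 := H225.PPow.not_dvd_index_U R hG
    obtain ⟨a, ha⟩ := hUp.exists_card_eq
    have h5 := Subgroup.card_mul_index (RGD.Sup X (RGD.Pos cs h))
    have h6 : Nat.card P = Nat.card π0.ker * Nat.card S := by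
      rw [← Subgroup.card_mul_index π0.ker, Subgroup.index_ker, MonoidHom.range_eq_top.2 hs]
      congr 1
      exact Nat.card_congr Subgroup.topEquiv.toEquiv
    have h7 : (Nat.card P).factorization p = (Nat.card S).factorization p := by
      rw [h6, Nat.factorization_mul Nat.card_pos.ne' Nat.card_pos.ne', Finsupp.add_apply,
        Nat.factorization_eq_zero_of_not_dvd hpk, zero_add]
    have h8 : (Nat.card P).factorization p = a := by
      rw [← h5, ha, Nat.factorization_mul (pow_ne_zero _ hp.out.ne_zero) Subgroup.index_ne_zero_of_finite,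
        Finsupp.add_apply, Nat.factorization_eq_zero_of_not_dvd h4, add_zero, hp.out.factorization_pow,
        Finsupp.single_eq_same]
    rw [← h7, h8, ← ha, h1, h2, h3, mul_comm]

end node

end Cfsg.Agent.H963.RIM
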