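import Cfsg.Agent.H382.RIM.Tool
import Cfsg.Agent.H730.OZ.Defs
import Cfsg.Agent.Blocks.PElements
import Cfsg.Agent.Blocks.Basic

/-!
# S4816, RIM-L-OWN: the Kawanaka criterion (helper963)

`E` a finite group with `Kaw p E` (the sum of every irreducible character over the `p`-elements is `± p^m χ(1)`, and there are
`|E|_p ^ 2` `p`-elements), `Z` a central `p'`-subgroup, `l` a linear character of `Z`.

* `exists_dvd_of_kaw` : if a subgroup `K` with `K ∩ Z = 1` contains more than `|E|_p` `p`-elements then some irreducible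
  character over `l` has degree divisible by `p`.
-/

set_option autoImplicit false

open scoped ComplexConjugate

namespace Cfsg.Agent.H963.RIM

open Cfsg Cfsg.Agent.Characters.Core Cfsg.Agent.H622.Over Cfsg.Agent.H382.RIM Cfsg.Agent.H730.OZ

universe u

variable {G : Type u} [Group G] [Finite G]

/-- the sum over the `p`-elements, second argument -/
theorem sum_pel_over {Z : Subgroup G} (hZ : Z ≤ Subgroup.center G) (l : Z →* ℂˣ) [Fintype (IrrCharacter G)] {p : ℕ}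
    {PE : Finset G} (hPE : ∀ u, u ∈ PE ↔ ∃ k : ℕ, orderOf u = p ^ k) (g : G) [Decidable (g ∈ PE)]
    (hg : ∀ u ∈ PE, ∀ n : Z, IsConj (g * n) u → n = 1) :
    ∑ u ∈ PE, ∑ χ ∈ ov Z l, (χ : G → ℂ) g * conj ((χ : G → ℂ) u) =
      (Nat.card Z : ℂ)⁻¹ * (if g ∈ PE then (Nat.card G : ℂ) else 0) := by
  classical
  have := Fintype.ofFinite Z
  have := Fintype.ofFinite G
  have h1 : ∀ u ∈ PE, ∑ χ ∈ ov Z l, (χ : G → ℂ) g * conj ((χ : G → ℂ) u) =
      (Nat.card Z : ℂ)⁻¹ * (if IsConj g u then (Nat.card (Subgroup.centralizer ({u} : Set G)) : ℂ) else 0) := by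
    intro u hu
    rw [sum_over hZ l g u, Finset.sum_eq_single (1 : Z)]
    · rw [Subgroup.coe_one, mul_one, map_one, Units.val_one, map_one, one_mul]
    · intro n _ hn
      rw [if_neg fun h => hn (hg u hu n h), mul_zero]
    · intro h
      exact absurd (Finset.mem_univ _) h
  rw [Finset.sum_congr rfl h1, ← Finset.mul_sum]
  congr 1
  have h2 : ∀ u, IsConj g u → (Nat.card (Subgroup.centralizer ({u} : Set G)) : ℂ) =
      (Nat.card (Subgroup.centralizer ({g} : Set G)) : ℂ) := by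
    intro u hu
    have h3 : (Subgroup.centralizer ({u} : Set G)).index = (Subgroup.centralizer ({g} : Set G)).index := by
      rw [Blocks.Basic.index_centralizer_eq_ncard, Blocks.Basic.index_centralizer_eq_ncard]
      congr 1
      ext x
      exact ⟨fun h => hu.trans h, fun h => hu.symm.trans h⟩
    have h4 := Subgroup.card_mul_index (Subgroup.centralizer ({u} : Set G))
    have h5 := Subgroup.card_mul_index (Subgroup.centralizer ({g} : Set G))
    rw [h3, ← h5] at h4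
    have h6 : 0 < (Subgroup.centralizer ({g} : Set G)).index := Nat.pos_of_ne_zero Subgroup.index_ne_zero_of_finite
    exact_mod_cast Nat.eq_of_mul_eq_mul_right h6 h4
  split_ifs with h3
  · have h4 : ∀ u, IsConj g u → u ∈ PE := by
      intro u hu
      obtain ⟨k, hk⟩ := (hPE g).1 h3
      obtain ⟨c, rfl⟩ := isConj_iff.1 hu
      refine (hPE _).2 ⟨k, ?_⟩
      rw [← hk, ← MulAut.conj_apply, MulEquiv.orderOf_eq]
    rw [← Finset.sum_filter, Finset.sum_congr rfl fun u hu => h2 u (Finset.mem_filter.1 hu).2, Finset.sum_const,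
      nsmul_eq_mul]
    have h5 : (PE.filter fun u => IsConj g u).card = (Subgroup.centralizer ({g} : Set G)).index := by
      rw [Blocks.Basic.index_centralizer_eq_ncard, Set.ncard_eq_toFinset_card']
      congr 1
      ext u
      rw [Finset.mem_filter, Set.mem_toFinset]
      exact ⟨fun h => h.2, fun h => ⟨h4 u h, h⟩⟩
    rw [h5]
    have h6 := Subgroup.card_mul_index (Subgroup.centralizer ({g} : Set G))
    rw [← h6]
    push_cast
    ring
  · refine Finset.sum_eq_zero fun u hu => if_neg fun h => h3 ?_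
    obtain ⟨k, hk⟩ := (hPE u).1 hu
    obtain ⟨c, rfl⟩ := isConj_iff.1 h
    refine (hPE _).2 ⟨k, ?_⟩
    rw [← hk, ← MulAut.conj_apply, MulEquiv.orderOf_eq]

theorem kaw_le {p : ℕ} [hp : Fact p.Prime] {χ : G → ℂ} (hχ : IsIrrCharacter G χ) (hd : ¬ p ∣ charDegree χ) {m : ℕ} {e : ℤ}
    (he : e = 1 ∨ e = -1) (h : ∑ᶠ u ∈ pSet p G, χ u = (e : ℂ) * (p : ℂ) ^ m * χ 1) :
    (Nat.card G).factorization p ≤ m := by
  obtain ⟨a, ha, h1⟩ := Blocks.PElements.exists_integral_sum_pElements (p := p) (isIrr_isCharacter hχ)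
  change ∑ᶠ u ∈ pSet p G, χ u = _ at h1
  rw [h, Blocks.Basic.irr_one_eq_charDegree hχ] at h1
  set q : ℕ := p ^ (Nat.card G).factorization p with hq
  have hq0 : (q : ℂ) ≠ 0 := by
    have : q ≠ 0 := pow_ne_zero _ hp.out.ne_zero
    exact_mod_cast this
  -- `a` is an integer
  have h2 : a = (((e * (p : ℤ) ^ m * (charDegree χ : ℤ) : ℤ) : ℚ) / (q : ℚ) : ℚ) := by
    push_cast
    rw [eq_div_iff hq0, mul_comm, ← h1]
  have h3 : ∃ z : ℤ, a = z := by
    rw [h2] at ha ⊢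
    have h4 : IsIntegral ℤ (((e * (p : ℤ) ^ m * (charDegree χ : ℤ) : ℤ) : ℚ) / (q : ℚ) : ℚ) := by
      have h5 : IsIntegral ℤ (algebraMap ℚ ℂ (((e * (p : ℤ) ^ m * (charDegree χ : ℤ) : ℤ) : ℚ) / (q : ℚ))) := ha
      exact (isIntegral_algebraMap_iff (algebraMap ℚ ℂ).injective).1 h5
    obtain ⟨z, hz⟩ := IsIntegrallyClosed.isIntegral_iff.1 h4
    refine ⟨z, ?_⟩
    rw [← hz]
    simp
  obtain ⟨z, hz⟩ := h3
  rw [hz] at h1
  have h4 : e * (p : ℤ) ^ m * (charDegree χ : ℤ) = (q : ℤ) * z := by exact_mod_cast h1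
  have h5 : (q : ℤ) ∣ (p : ℤ) ^ m * (charDegree χ : ℤ) := by
    rcases he with rfl | rfl
    · exact ⟨z, by linarith⟩
    · exact ⟨-z, by linarith⟩
  have h6 : q ∣ p ^ m * charDegree χ := by exact_mod_cast h5
  have h7 : Nat.Coprime q (charDegree χ) := Nat.Coprime.pow_left _ ((Nat.Prime.coprime_iff_not_dvd hp.out).2 hd)
  exact (Nat.pow_dvd_pow_iff_le_right hp.out.one_lt).1 (h7.dvd_of_dvd_mul_right h6)

/-- **The Kawanaka criterion.** -/
theorem exists_dvd_of_kaw {p : ℕ} [hp : Fact p.Prime] (hK : Kaw p G) {Z : Subgroup G} (hZ : Z ≤ Subgroup.center G)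
    (hpZ : ¬ p ∣ Nat.card Z) (l : Z →* ℂˣ) {K : Subgroup G} (hKZ : ∀ z ∈ K, z ∈ Z → z = 1)
    (hlt : p ^ (Nat.card G).factorization p < Nat.card {k : K // ∃ j : ℕ, orderOf k = p ^ j}) :
    ∃ χ : G → ℂ, IsIrrCharacter G χ ∧ (∀ z : Z, χ z = χ 1 * l z) ∧ p ∣ charDegree χ := by
  classical
  have := Fintype.ofFinite G
  have := Fintype.ofFinite Z
  have := Fintype.ofFinite K
  have := finite_irr (G := G)
  have := Fintype.ofFinite (IrrCharacter G)
  by_contra hcon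
  push Not at hcon
  have h0 : ∀ χ ∈ ov Z l, ¬ p ∣ charDegree ((χ : IrrCharacter G) : G → ℂ) := by
    intro χ hχ
    refine hcon χ χ.2 fun z => ?_
    have h1 := (mem_ov.1 hχ) 1 z
    rwa [one_mul] at h1
  set a := (Nat.card G).factorization p with ha
  set PE : Finset G := (Set.toFinite (pSet p G)).toFinset with hPEd
  have hPE : ∀ u, u ∈ PE ↔ ∃ k : ℕ, orderOf u = p ^ k := by
    intro u
    rw [hPEd, Set.Finite.mem_toFinset]
    rfl
  have hcardPE : PE.card = p ^ (2 * a) := by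
    rw [← hK.card, Set.ncard_eq_toFinset_card (pSet p G) (Set.toFinite _)]
  -- the sums
  have hsum : ∀ χ : IrrCharacter G, ∃ (m : ℕ) (e : ℤ), (e = 1 ∨ e = -1) ∧
      ∑ u ∈ PE, (χ : G → ℂ) u = (e : ℂ) * (p : ℂ) ^ m * (χ : G → ℂ) 1 ∧ (χ ∈ ov Z l → a ≤ m) := by
    intro χ
    obtain ⟨m, e, he, h1⟩ := hK.sum χ χ.2
    refine ⟨m, e, he, ?_, fun hχ => kaw_le χ.2 (h0 χ hχ) he h1⟩
    rw [← h1, finsum_mem_eq_finite_toFinset_sum _ (Set.toFinite _)]
  choose m e he hs ham using hsum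
  -- orders
  have hord : ∀ (w : G) (n : Z) (u : G), (∃ j : ℕ, w ^ p ^ j = 1 ∨ ∃ k : K, w = k) → u ∈ PE → IsConj (w * n) u → n = 1 := by
    rintro w n u ⟨j, hw⟩ hu hc
    obtain ⟨k, hk⟩ := (hPE u).1 hu
    obtain ⟨c, hc⟩ := isConj_iff.1 hc
    have h1 : (w * n) ^ p ^ k = 1 := by
      have h2 : (c * (w * n) * c⁻¹) ^ p ^ k = 1 := by rw [hc, ← hk, pow_orderOf_eq_one]
      rw [conj_pow] at h2
      exact conj_eq_one_iff.1 h2
    have hcm : Commute w (n : G) := Subgroup.mem_center_iff.1 (hZ n.2) w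
    rw [hcm.mul_pow] at h1
    have h3 : ∃ i : ℕ, (n : G) ^ p ^ i = 1 := by
      rcases hw with hw | ⟨k', rfl⟩
      · refine ⟨k + j, ?_⟩
        have h4 := congrArg (fun x => x ^ p ^ j) h1
        simp only [one_pow] at h4
        rw [(hcm.pow_pow _ _).mul_pow, ← pow_mul, ← pow_mul, mul_comm (p ^ k), pow_mul w, hw, one_pow, one_mul,
          mul_comm (p ^ j), ← pow_add] at h4
        exact h4
      · refine ⟨k, ?_⟩
        have h4 : (n : G) ^ p ^ k = ((k' : G) ^ p ^ k)⁻¹ := by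
          rw [eq_inv_iff_mul_eq_one, ← h1]
          exact ((hcm.pow_pow _ _).eq).symm
        exact hKZ _ (by rw [h4]; exact inv_mem (pow_mem k'.2 _)) (pow_mem n.2 _)
    obtain ⟨i, hi⟩ := h3
    have h4 : n ^ p ^ i = 1 := Subtype.ext hi
    have h5 : n ^ Nat.card Z = 1 := pow_card_eq_one'
    have h6 := Nat.dvd_gcd (orderOf_dvd_of_pow_eq_one h4) (orderOf_dvd_of_pow_eq_one h5)
    have h7 : Nat.Coprime (p ^ i) (Nat.card Z) := Nat.Coprime.pow_left _ ((Nat.Prime.coprime_iff_not_dvd hp.out).2 hpZ)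
    rw [h7] at h6
    exact orderOf_eq_one_iff.1 (Nat.dvd_one.1 h6)
  have hZ0 : (Nat.card Z : ℂ) ≠ 0 := by exact_mod_cast (Nat.card_pos (α := Z)).ne'
  -- the sum of squares
  have hsq : (Nat.card Z : ℂ) * ∑ χ ∈ ov Z l, ((p : ℂ) ^ m χ * (charDegree (χ : G → ℂ) : ℂ)) ^ 2 =
      Nat.card G * (p : ℂ) ^ (2 * a) := by
    have h1 : ∑ v ∈ PE, ∑ u ∈ PE, ∑ χ ∈ ov Z l, (χ : G → ℂ) v * conj ((χ : G → ℂ) u) =
        (Nat.card Z : ℂ)⁻¹ * (Nat.card G * (p : ℂ) ^ (2 * a)) := by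
      have h2 : ∀ v ∈ PE, ∑ u ∈ PE, ∑ χ ∈ ov Z l, (χ : G → ℂ) v * conj ((χ : G → ℂ) u) =
          (Nat.card Z : ℂ)⁻¹ * Nat.card G := by
        intro v hv
        rw [sum_pel_over hZ l hPE v, if_pos hv]
        intro u hu n hn
        obtain ⟨j, hj⟩ := (hPE v).1 hv
        exact hord v n u ⟨j, Or.inl (by rw [← hj, pow_orderOf_eq_one])⟩ hu hn
      rw [Finset.sum_congr rfl h2, Finset.sum_const, hcardPE, nsmul_eq_mul]
      push_cast
      ring
    have h2 : ∑ v ∈ PE, ∑ u ∈ PE, ∑ χ ∈ ov Z l, (χ : G → ℂ) v * conj ((χ : G → ℂ) u) =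
        ∑ χ ∈ ov Z l, ((p : ℂ) ^ m χ * (charDegree (χ : G → ℂ) : ℂ)) ^ 2 := by
      have h3 : ∀ v, ∑ u ∈ PE, ∑ χ ∈ ov Z l, (χ : G → ℂ) v * conj ((χ : G → ℂ) u) =
          ∑ χ ∈ ov Z l, (χ : G → ℂ) v * conj (∑ u ∈ PE, (χ : G → ℂ) u) := by
        intro v
        rw [Finset.sum_comm]
        refine Finset.sum_congr rfl fun χ _ => ?_
        rw [map_sum, Finset.mul_sum]
      rw [Finset.sum_congr rfl fun v _ => h3 v, Finset.sum_comm]
      refine Finset.sum_congr rfl fun χ _ => ?_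
      rw [← Finset.sum_mul, hs, Blocks.Basic.irr_one_eq_charDegree χ.2]
      simp only [map_mul, map_pow, map_intCast, map_natCast]
      have h4 : (e χ : ℂ) * (e χ : ℂ) = 1 := by
        rcases he χ with h | h <;> rw [h] <;> norm_num
      linear_combination ((p : ℂ) ^ m χ * (charDegree (χ : G → ℂ) : ℂ)) ^ 2 * h4
    rw [← h2, h1, ← mul_assoc, mul_inv_cancel₀ hZ0, one_mul]
  have hsq' : Nat.card Z * ∑ χ ∈ ov Z l, (p ^ m χ * charDegree (χ : G → ℂ)) ^ 2 =
      Nat.card Z * ∑ χ ∈ ov Z l, (p ^ a * charDegree (χ : G → ℂ)) ^ 2 := by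
    have h1 : Nat.card Z * ∑ χ ∈ ov Z l, (p ^ m χ * charDegree (χ : G → ℂ)) ^ 2 = Nat.card G * p ^ (2 * a) := by
      exact_mod_cast hsq
    have h2 := sum_deg_over hZ l
    have h3 : ∑ χ ∈ ov Z l, (p ^ a * charDegree (χ : G → ℂ)) ^ 2 = p ^ (2 * a) * ∑ χ ∈ ov Z l, charDegree (χ : G → ℂ) ^ 2 := by
      rw [Finset.mul_sum]
      refine Finset.sum_congr rfl fun χ _ => ?_
      rw [mul_pow, ← pow_mul, mul_comm a]
    rw [h1, h3, ← h2]
    ring
  have hma : ∀ χ ∈ ov Z l, m χ = a := by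
    have h1 := Nat.eq_of_mul_eq_mul_left (Nat.card_pos (α := Z)) hsq'
    have h2 := (Finset.sum_eq_sum_iff_of_le (s := ov Z l)
      (f := fun χ : IrrCharacter G => (p ^ a * charDegree (χ : G → ℂ)) ^ 2)
      (g := fun χ : IrrCharacter G => (p ^ m χ * charDegree (χ : G → ℂ)) ^ 2) (fun χ hχ =>
        Nat.pow_le_pow_left (Nat.mul_le_mul_right _ (Nat.pow_le_pow_right hp.out.pos (ham χ hχ))) 2)).1 h1.symm
    intro χ hχ
    have h3 : (p ^ a * charDegree (χ : G → ℂ)) ^ 2 = (p ^ m χ * charDegree (χ : G → ℂ)) ^ 2 := h2 χ hχ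
    have h4 := Nat.pow_left_injective (n := 2) (by norm_num) h3
    have h5 : 0 < charDegree (χ : G → ℂ) := Nat.pos_of_ne_zero fun h => h0 χ hχ (h ▸ dvd_zero p)
    exact (Nat.pow_right_injective hp.out.two_le (Nat.eq_of_mul_eq_mul_right h5 h4)).symm
  -- the fixed points of `K`
  have hn : ∀ χ : IrrCharacter G, ∃ n : ℕ, ∑ k : K, (χ : G → ℂ) k = (Nat.card K : ℂ) * n := by
    intro χ
    obtain ⟨n, hn⟩ := classInner_isNat (G := K)
      (Characters.Clifford.isCharacter_restrict K (isIrr_isCharacter χ.2)) isCharacter_one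
    refine ⟨n, ?_⟩
    have hK0 : (Nat.card K : ℂ) ≠ 0 := by exact_mod_cast (Nat.card_pos (α := K)).ne'
    rw [← hn, classInner_def, ← mul_assoc, mul_inv_cancel₀ hK0, one_mul]
    refine Finset.sum_congr rfl fun k _ => ?_
    rw [Pi.one_apply, map_one, mul_one]
  choose n hn using hn
  -- first sum
  have hA : (Nat.card Z : ℂ) * ∑ χ ∈ ov Z l, (Nat.card K : ℂ) * n χ * (charDegree (χ : G → ℂ) : ℂ) = Nat.card G := by
    have h1 : ∀ k : K, ∑ χ ∈ ov Z l, (χ : G → ℂ) k * conj ((χ : G → ℂ) 1) =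
        (Nat.card Z : ℂ)⁻¹ * (if k = 1 then (Nat.card G : ℂ) else 0) := by
      intro k
      rw [sum_over hZ l (k : G) 1]
      congr 1
      have h2 : ∀ z : Z, IsConj ((k : G) * z) 1 → (k : G) = 1 ∧ z = 1 := by
        intro z hz
        have h3 : (k : G) * z = 1 := by
          obtain ⟨c, hc⟩ := isConj_iff.1 hz
          exact conj_eq_one_iff.1 hc
        have h4 : (z : G) = 1 := by
          refine hKZ _ ?_ z.2
          rw [← inv_eq_iff_mul_eq_one.2 h3]
          exact inv_mem k.2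
        refine ⟨?_, Subtype.ext h4⟩
        rwa [h4, mul_one] at h3
      rw [Finset.sum_eq_single (1 : Z)]
      · rw [Subgroup.coe_one, mul_one, map_one, Units.val_one, map_one, one_mul]
        by_cases hk : k = 1
        · subst hk
          rw [if_pos rfl, Subgroup.coe_one, if_pos (IsConj.refl _)]
          have h5 : Subgroup.centralizer ({(1 : G)} : Set G) = ⊤ := by
            rw [Subgroup.centralizer_eq_top_iff_subset]
            intro x hx
            rw [Set.mem_singleton_iff.1 hx]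
            exact one_mem _
          rw [h5, Nat.card_congr Subgroup.topEquiv.toEquiv]
        · rw [if_neg hk, if_neg]
          intro h6
          apply hk
          have h7 := h2 1 (by rwa [Subgroup.coe_one, mul_one])
          exact Subtype.ext h7.1
      · intro z _ hz
        rw [if_neg fun h => hz (h2 z h).2, mul_zero]
      · intro h
        exact absurd (Finset.mem_univ _) h
    have h3 : ∑ k : K, ∑ χ ∈ ov Z l, (χ : G → ℂ) k * conj ((χ : G → ℂ) 1) = (Nat.card Z : ℂ)⁻¹ * Nat.card G := by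
      rw [Finset.sum_congr rfl fun k _ => h1 k, ← Finset.mul_sum, Finset.sum_ite_eq' Finset.univ (1 : K),
        if_pos (Finset.mem_univ _)]
    have h4 : ∑ k : K, ∑ χ ∈ ov Z l, (χ : G → ℂ) k * conj ((χ : G → ℂ) 1) =
        ∑ χ ∈ ov Z l, (Nat.card K : ℂ) * n χ * (charDegree (χ : G → ℂ) : ℂ) := by
      rw [Finset.sum_comm]
      refine Finset.sum_congr rfl fun χ _ => ?_
      rw [← Finset.sum_mul, hn, Blocks.Basic.irr_one_eq_charDegree χ.2, map_natCast]
    rw [← h4, h3, ← mul_assoc, mul_inv_cancel₀ hZ0, one_mul]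
  -- second sum
  have hB : (Nat.card Z : ℂ) * ∑ χ ∈ ov Z l, (Nat.card K : ℂ) * n χ * ((e χ : ℂ) * ((p : ℂ) ^ a * (charDegree (χ : G → ℂ) : ℂ))) =
      Nat.card {k : K // ∃ j : ℕ, orderOf k = p ^ j} * Nat.card G := by
    have h1 : ∀ k : K, ∑ u ∈ PE, ∑ χ ∈ ov Z l, (χ : G → ℂ) k * conj ((χ : G → ℂ) u) =
        (Nat.card Z : ℂ)⁻¹ * (if (k : G) ∈ PE then (Nat.card G : ℂ) else 0) := by
      intro k
      exact sum_pel_over hZ l hPE k fun u hu z hz => hord _ z u ⟨0, Or.inr ⟨k, rfl⟩⟩ hu hz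
    have h3 : ∑ k : K, ∑ u ∈ PE, ∑ χ ∈ ov Z l, (χ : G → ℂ) k * conj ((χ : G → ℂ) u) =
        (Nat.card Z : ℂ)⁻¹ * (Nat.card {k : K // ∃ j : ℕ, orderOf k = p ^ j} * Nat.card G) := by
      rw [Finset.sum_congr rfl fun k _ => h1 k, ← Finset.mul_sum, ← Finset.sum_filter, Finset.sum_const, nsmul_eq_mul]
      congr 2
      have h4 : (Finset.univ.filter fun k : K => (k : G) ∈ PE).card = Nat.card {k : K // ∃ j : ℕ, orderOf k = p ^ j} := by
        rw [Nat.card_eq_fintype_card, Fintype.card_subtype]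
        congr 1
        ext k
        rw [Finset.mem_filter, Finset.mem_filter, hPE, Subgroup.orderOf_coe]
      rw [h4]
    have h4 : ∑ k : K, ∑ u ∈ PE, ∑ χ ∈ ov Z l, (χ : G → ℂ) k * conj ((χ : G → ℂ) u) =
        ∑ χ ∈ ov Z l, (Nat.card K : ℂ) * n χ * ((e χ : ℂ) * ((p : ℂ) ^ a * (charDegree (χ : G → ℂ) : ℂ))) := by
      have h5 : ∀ k : K, ∑ u ∈ PE, ∑ χ ∈ ov Z l, (χ : G → ℂ) k * conj ((χ : G → ℂ) u) =
          ∑ χ ∈ ov Z l, (χ : G → ℂ) k * conj (∑ u ∈ PE, (χ : G → ℂ) u) := by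
        intro k
        rw [Finset.sum_comm]
        refine Finset.sum_congr rfl fun χ _ => ?_
        rw [map_sum, Finset.mul_sum]
      rw [Finset.sum_congr rfl fun k _ => h5 k, Finset.sum_comm]
      refine Finset.sum_congr rfl fun χ hχ => ?_
      rw [← Finset.sum_mul, hn, hs, hma χ hχ, Blocks.Basic.irr_one_eq_charDegree χ.2]
      simp only [map_mul, map_pow, map_intCast, map_natCast]
      ring
    rw [← h4, h3, ← mul_assoc, mul_inv_cancel₀ hZ0, one_mul]
  -- comparison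
  have hA' : (Nat.card Z : ℤ) * ∑ χ ∈ ov Z l, (Nat.card K : ℤ) * n χ * (charDegree (χ : G → ℂ) : ℤ) = Nat.card G := by
    exact_mod_cast hA
  have hB' : (Nat.card Z : ℤ) * ∑ χ ∈ ov Z l, (Nat.card K : ℤ) * n χ * ((e χ : ℤ) * ((p : ℤ) ^ a * (charDegree (χ : G → ℂ) : ℤ))) =
      Nat.card {k : K // ∃ j : ℕ, orderOf k = p ^ j} * Nat.card G := by
    exact_mod_cast hB
  have hle : ∑ χ ∈ ov Z l, (Nat.card K : ℤ) * n χ * ((e χ : ℤ) * ((p : ℤ) ^ a * (charDegree (χ : G → ℂ) : ℤ))) ≤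
      (p : ℤ) ^ a * ∑ χ ∈ ov Z l, (Nat.card K : ℤ) * n χ * (charDegree (χ : G → ℂ) : ℤ) := by
    rw [Finset.mul_sum]
    refine Finset.sum_le_sum fun χ _ => ?_
    have h1 : (0 : ℤ) ≤ (Nat.card K : ℤ) * n χ * ((p : ℤ) ^ a * (charDegree (χ : G → ℂ) : ℤ)) := by positivity
    rcases he χ with h | h
    · rw [h]
      apply le_of_eq
      ring
    · rw [h]
      have h2 : (Nat.card K : ℤ) * n χ * ((-1) * ((p : ℤ) ^ a * (charDegree (χ : G → ℂ) : ℤ))) ≤ 0 := by linarith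
      have h3 : (p : ℤ) ^ a * ((Nat.card K : ℤ) * n χ * (charDegree (χ : G → ℂ) : ℤ)) =
          (Nat.card K : ℤ) * n χ * ((p : ℤ) ^ a * (charDegree (χ : G → ℂ) : ℤ)) := by ring
      rw [h3]
      linarith
  have hfin := mul_le_mul_of_nonneg_left hle (show (0 : ℤ) ≤ Nat.card Z by positivity)
  rw [hB', mul_left_comm, hA'] at hfin
  have hG : (0 : ℤ) < Nat.card G := by exact_mod_cast (Nat.card_pos (α := G))
  have h1 := le_of_mul_le_mul_right hfin hG
  have h2 : Nat.card {k : K // ∃ j : ℕ, orderOf k = p ^ j} ≤ p ^ a := by exact_mod_cast h1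
  omega

end Cfsg.Agent.H963.RIM
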