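import Cfsg.Agent.H963.RIM.OwnC
import Cfsg.Agent.H948.Ppd.NdWitt
import Cfsg.Agent.Nodes.WittInst
import Cfsg.Agent.H61.SUCross
import Cfsg.Agent.H332.PQ.Rgd
import Cfsg.Agent.H650.Ppd.SpNd

/-!
# S4816, RIM-L-OWN: the classical groups with a Witt frame in their own characteristic (helper963)

* `nball_model` : a group modelled on a Witt frame (`FrameCN.Model`), `SL_2(E)` at a node;
* `nball_long` : a long node, with a vector orthogonal to it;
* `nb_own_psp`, `nb_own_psu`, `nb_own_oodd`, `nb_own_ominus`.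
-/

set_option autoImplicit false

namespace Cfsg.Agent.H963.RIM

open Cfsg Cfsg.Agent.H665.RIM Cfsg.Agent.H911.SLTwo
open Cfsg.Agent.ChevalleyStructure.CoxeterGeom Cfsg.Agent.Tits.Roots
open Cfsg.Agent.Nodes.Comb Cfsg.Agent.Nodes.Reps Cfsg.Agent.Nodes.WittRoot Cfsg.Agent.Nodes.BNOf
open Cfsg.Agent.Nodes.RGDLib Cfsg.Agent.Nodes.WittAll Cfsg.Agent.Nodes Cfsg.Agent.Nodes.Bruhat
open Cfsg.Agent.TitsThree Cfsg.Agent.TitsThree.Siegel Cfsg.Agent.TitsThree.SiegelGen
  Cfsg.Agent.TitsThree.WittFrame Cfsg.Agent.TitsThree.WittWeyl Cfsg.Agent.TitsThree.FrameCN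
  Cfsg.Agent.TitsThree.WBridge
open Cfsg.Agent.Nodes.TypeC (ng ng_ng ng_fst ng_snd nx isCartan)
open Cfsg.Agent.Nodes.WittRGD (Tor mem_Tor rg_sr rg_neg_sr)
open Cfsg.Agent.H62.FrameSL
open scoped MatrixGroups

universe u v w

section lines

variable {F : Type*} [Field F] {V : Type*} [AddCommGroup V] [Module F V]

/-- a linear map fixing every line and a nonzero vector -/
theorem eq_one_of_lines {g : V ≃ₗ[F] V} (h : ∀ v, ∃ a : F, g v = a • v) {v0 : V} (hv0 : v0 ≠ 0) (hg : g v0 = v0) :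
    g = 1 := by
  ext w
  show g w = w
  by_cases hw : ∃ c : F, w = c • v0
  · obtain ⟨c, rfl⟩ := hw
    rw [map_smul, hg]
  · obtain ⟨a, ha⟩ := h w
    obtain ⟨c, hc⟩ := h (v0 + w)
    rw [map_add, hg, ha, smul_add] at hc
    by_cases hac : a = c
    · subst hac
      rw [add_left_inj] at hc
      have h1 : (1 - a) • v0 = 0 := by
        rw [sub_smul, one_smul, ← hc, sub_self]
      rcases smul_eq_zero.1 h1 with h2 | h2
      · rw [ha, ← sub_eq_zero.1 h2, one_smul]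
      · exact absurd h2 hv0
    · exfalso
      apply hw
      refine ⟨(a - c)⁻¹ * (c - 1), ?_⟩
      have h3 : (a - c) • w = (c - 1) • v0 := by
        rw [sub_smul, sub_smul, one_smul]
        rw [← sub_eq_zero] at hc ⊢
        rw [← hc]; abel
      rw [mul_smul, ← h3, smul_smul, inv_mul_cancel₀ (sub_ne_zero.2 hac), one_smul]

end lines

section model

variable {F : Type*} [Field F] {V : Type*} [AddCommGroup V] [Module F V] [Finite V] {H : HForm F V} {n : ℕ}
  {Fr : Frame H (Fin n)} {K : Type u} [Group K] [Finite K] (M : Model Fr K) {p : ℕ} [hp : Fact p.Prime] [CharP F p]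
  (hA : AmbT Fr p M.I) {p0 : Fr.Adm} (hp0 : p0.c ≠ 0)

include hA hp0 in
/-- **`NBall` of a group modelled on a Witt frame.** -/
theorem nball_model {i : Fin n} {E : Type w} [Field E] [Finite E] [CharP E p] (φ : SL(2, E) →* (V ≃ₗ[F] V))
    (hu : ∀ y, y ∈ WittRoot.rg Fr (sr i) ↔ ∃ t, φ (U t) = y) (hl : ∀ y, y ∈ WittRoot.rg Fr (-sr i) ↔ ∃ t, φ (Lo t) = y)
    (hinj : ∀ x, (∀ v, ∃ a : F, φ x v = a • v) → x = 1) : NBall p K := by
  have hn : 0 < n := lt_of_le_of_lt (Nat.zero_le _) i.2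
  have hle : ∀ x, WittRoot.rg Fr x ≤ M.I := fun x => hA.rg_le x
  have hmem : ∀ g, φ g ∈ M.I := by
    intro g
    refine (Subgroup.closure_le (M.I.comap φ)).2 ?_ (Cfsg.Agent.H948.Ppd.mem_closure_SL g)
    rintro _ (⟨a, rfl⟩ | ⟨a, rfl⟩)
    · exact hle _ ((hu _).2 ⟨a, rfl⟩)
    · exact hle _ ((hl _).2 ⟨a, rfl⟩)
  have R := rgdC_model M hA hp0 (CoxeterMatrix.B n).toCoxeterSystem
  have : Finite (CoxeterMatrix.B n).Group := Nodes.TypeC.finite_W (CoxeterMatrix.B n).toCoxeterSystem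
  have hG : GG (CoxeterMatrix.B n).toCoxeterSystem (isCartan n) (WittModel.T M) (WittModel.X M) = ⊤ :=
    H332.PQ.gg_eq_top (WittModel.G1_eq_top M hn _)
  have hidker : (MonoidHom.id K).ker = ⊥ := (MonoidHom.ker_eq_bot_iff _).2 Function.injective_id
  refine nball_of_nd (P := K) R hG (hasRGD_C M hA hp0 hn) (MonoidHom.id K) Function.surjective_id
    (by rw [hidker]; exact bot_le) (by rw [hidker, Subgroup.card_bot]; exact Nat.coprime_one_left p) (i := i)
    (M.φ.comp (φ.codRestrict M.I hmem)) ?_ ?_ ?_ ?_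
  · intro t
    exact WittModel.mem_X_of M _ ((hu _).2 ⟨t, rfl⟩)
  · intro y hy
    obtain ⟨g, hg, h1, rfl⟩ := (WittModel.mem_X M).1 hy
    obtain ⟨t, ht⟩ := (hu _).1 h1
    refine ⟨t, ?_⟩
    show M.φ _ = _
    congr 1
    exact Subtype.ext ht
  · intro t
    exact WittModel.mem_X_of M _ ((hl _).2 ⟨t, rfl⟩)
  · intro x hx
    exact hinj x fun v => M.ker v _ hx

include hA hp0 in
/-- **The long nodes.** -/
theorem nball_long [Finite F] {i : Fin n} (hi : (i : ℕ) + 1 < n) {v0 : V} (hv0 : v0 ≠ 0)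
    (h1 : ∀ s, H.h v0 (Fr.b (i, s)) = 0) (h2 : ∀ s, H.h v0 (Fr.b (⟨i + 1, hi⟩, s)) = 0) : NBall p K := by
  have hij : i ≠ ⟨i + 1, hi⟩ := by
    intro e
    have := congrArg Fin.val e
    simp only at this
    omega
  have hu : ∀ y, y ∈ WittRoot.rg Fr (sr i) ↔ ∃ t, phiS Fr hij (U t) = y := by
    intro y
    rw [rg_sr, PG_ne Fr (H61.SUNode.ne_nx hi), H61.SUNode.nx_of_lt hi, mem_XG]
    exact exists_congr fun t => eq_comm.trans (iff_of_eq (congrArg (· = y) (phiS_up Fr hij t).symm))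
  have hl : ∀ y, y ∈ WittRoot.rg Fr (-sr i) ↔ ∃ t, phiS Fr hij (Lo t) = y := by
    intro y
    rw [rg_neg_sr, PG_ne Fr (a := ng (i, true)) (b := ng (nx i)) (H61.SUNode.ne_nx hi),
      XG_swap Fr (a := ng (i, true)) (b := ng (nx i)) (H61.SUNode.ne_nx hi), H61.SUNode.nx_of_lt hi, mem_XG]
    exact exists_congr fun t => eq_comm.trans (iff_of_eq (congrArg (· = y) (phiS_lo Fr hij t).symm))
  refine nball_model M hA hp0 (phiS Fr hij) hu hl ?_
  intro x hx
  have hfix : phiS Fr hij x v0 = v0 := by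
    rw [phiS_apply, linS_apply, h1, h1, h2, h2]
    simp only [mul_zero, add_zero, sub_zero, zero_smul]
  exact phiS_injective Fr hij ((eq_one_of_lines hx hv0 hfix).trans (map_one _).symm)

end model

/-! ### symplectic groups -/

section sp

open Cfsg.Agent.TitsThree.SpIdent

/-- **`PSp_{2m}(F)` in its own characteristic, `m ≥ 2`.** -/
theorem nb_own_psp {F : Type u} [Field F] [Finite F] {p : ℕ} [hp : Fact p.Prime] [CharP F p] {m : ℕ} (hm : 2 ≤ m) :
    NBall p (PSp m F) := by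
  have hA : AmbT (frame m F) p (KInstSp.model m F).I := AmbT.of_amb Nodes.WittU.amb_Sp p
  have hi : ¬ ((⟨m - 1, by omega⟩ : Fin m) : ℕ) + 1 < m := by simp only; omega
  set i : Fin m := ⟨m - 1, by omega⟩ with hid
  have hnx : nx i = (i, true) := by unfold nx; rw [dif_neg hi]
  refine nball_model (KInstSp.model m F) hA (p0 := adm 1) one_ne_zero (i := i) (phiL (frame m F) i) (fun y => ?_)
    (fun y => ?_) ?_
  · rw [rg_sr, hnx, PG_self, Cfsg.Agent.H650.Ppd.mem_ZG]
    constructor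
    · rintro ⟨t, e⟩
      exact ⟨-t, (phiL_up i (-t)).trans (by rw [_root_.neg_neg, e])⟩
    · rintro ⟨t, rfl⟩
      exact ⟨-t, phiL_up i t⟩
  · rw [rg_neg_sr, hnx, PG_self, Cfsg.Agent.H650.Ppd.mem_ZG]
    constructor
    · rintro ⟨t, e⟩
      exact ⟨t, (phiL_lo i t).trans e.symm⟩
    · rintro ⟨t, rfl⟩
      exact ⟨t, phiL_lo i t⟩
  · intro x hx
    have h0 : (⟨0, by omega⟩ : Fin m) ≠ i := by
      intro e
      have := congrArg Fin.val e
      simp only [hid] at this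
      omega
    have hv0 : (frame m F).b (⟨0, by omega⟩, true) ≠ 0 := by
      intro e
      have h1 := Cfsg.Agent.H62.FrameSL.ht (frame m F) ⟨0, by omega⟩
      rw [e, HForm.zero_left] at h1
      exact zero_ne_one h1
    refine phiL_injective (frame m F) i ((eq_one_of_lines hx hv0 ?_).trans (map_one _).symm)
    rw [phiL_apply, linL_apply, H62.FrameSL.hn _ h0, H62.FrameSL.hn _ h0]
    simp only [mul_zero, add_zero, zero_smul]

end sp

/-! ### unitary groups -/

section su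

open Cfsg.Agent.TitsThree.KSideU Cfsg.Agent.TitsThree.KSideUDesc Cfsg.Agent.LieClassical.HermBasic
open Cfsg.Agent.Nodes.WittU (amb_U exists_adm)
open Cfsg.Agent.H61.LastEven (P2 R2 Ph rel_up rel_lo adm_w adm_c exists_equiv)
open Cfsg.Agent.Phan (fixedField mem_fixedField card_fixedField)

variable {F : Type u} [Field F] [Fintype F] {q N : ℕ} {p : ℕ} [hp : Fact p.Prime] [CharP F p]

/-- `PSU_{2m}(q)`, `m ≥ 2`: the last node -/
theorem nb_own_psu_even (hF : Fintype.card F = q ^ 2) {m : ℕ} (hm : 2 ≤ m) (hN : N = 2 * m) : NBall p (PSU N F q) := by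
  obtain ⟨W, hV0⟩ := exists_wframe_even hF hN
  obtain ⟨p0, hp0, -⟩ := exists_adm hF W
  obtain ⟨δ, hδ, hδ0⟩ := H61.SUCross.exists_delta hF
  have hN3 : 3 ≤ N := by omega
  have hi : ¬ ((⟨m - 1, by omega⟩ : Fin m) : ℕ) + 1 < m := by simp only; omega
  set i : Fin m := ⟨m - 1, by omega⟩ with hid
  have hnx : nx i = (i, true) := by unfold nx; rw [dif_neg hi]
  obtain ⟨e, he⟩ := exists_equiv (i := i) hV0 hδ hδ0
  let f : SL(2, fixedField hF) →* ((Fin N → F) ≃ₗ[F] (Fin N → F)) := (P2 W i).subtype.comp e.symm.toMonoidHom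
  have hf : ∀ A, f A = (e.symm A : (Fin N → F) ≃ₗ[F] (Fin N → F)) := fun _ => rfl
  have hfR : ∀ A, R2 W i δ (f A) A := by
    intro A
    have h1 := he (e.symm A)
    rwa [e.apply_symm_apply] at h1
  have hfe : ∀ {g}, g ∈ P2 W i → ∀ {A}, R2 W i δ g A → f A = g := by
    intro g hg A hA
    have h1 : e ⟨g, hg⟩ = A := (he ⟨g, hg⟩).unique (H61.LastEven.indep hδ0) hA
    rw [hf, ← h1, e.symm_apply_apply]
  have hch : CharP (fixedField hF) p := inferInstance
  refine nball_model (KInstU.model hF hN3 W) (AmbT.of_amb (amb_U hF W) p) hp0 (i := i) f (fun y => ?_)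
    (fun y => ?_) ?_
  · rw [rg_sr, hnx, PG_self]
    constructor
    · rintro ⟨p, rfl⟩
      have hc := adm_c hV0 p
      have hk : (p.c * δ⁻¹) ^ q = p.c * δ⁻¹ := by
        rw [mul_pow, inv_pow, hδ, hc]
        field_simp
      exact ⟨⟨p.c * δ⁻¹, hk⟩, hfe ((le_sup_left : ZG (toFrame W) (i, true) ≤ P2 W i) ⟨p, rfl⟩)
        (rel_up (adm_w hV0 p) (inv_mul_cancel_right₀ hδ0 _).symm)⟩
    · rintro ⟨t, rfl⟩
      have ht : (t : F) ^ q = t := t.2
      let p : (toFrame W).Adm := ⟨0, t * δ, W.V0.zero_mem, by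
        rw [ok_iff, herm_zero_left, mul_pow, hδ, ht]; ring⟩
      exact ⟨p, hfe ((le_sup_left : ZG (toFrame W) (i, true) ≤ P2 W i) ⟨p, rfl⟩) (rel_up rfl rfl)⟩
  · rw [rg_neg_sr, hnx]
    rw [show PG (toFrame W) (ng (i, true)) (ng (i, true)) = ZG (toFrame W) (i, false) from PG_self _ _]
    constructor
    · rintro ⟨p, rfl⟩
      have hc := adm_c hV0 p
      have hk : (δ * p.c) ^ q = δ * p.c := by
        rw [mul_pow, hδ, hc]
        ring
      exact ⟨⟨δ * p.c, hk⟩, hfe ((le_sup_right : ZG (toFrame W) (i, false) ≤ P2 W i) ⟨p, rfl⟩)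
        (rel_lo (adm_w hV0 p) rfl)⟩
    · rintro ⟨t, rfl⟩
      have ht : (t : F) ^ q = t := t.2
      let p : (toFrame W).Adm := ⟨0, δ⁻¹ * t, W.V0.zero_mem, by
        rw [ok_iff, herm_zero_left, mul_pow, inv_pow, hδ, ht, inv_neg]; ring⟩
      exact ⟨p, hfe ((le_sup_right : ZG (toFrame W) (i, false) ≤ P2 W i) ⟨p, rfl⟩)
        (rel_lo rfl (mul_inv_cancel_left₀ hδ0 _))⟩
  · intro x hx
    have h0 : (⟨0, by omega⟩ : Fin m) ≠ i := by
      intro e
      have := congrArg Fin.val e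
      simp only [hid] at this
      omega
    have hv0 : W.e ⟨0, by omega⟩ ≠ 0 := by
      intro e
      have h1 := W.ef ⟨0, by omega⟩ ⟨0, by omega⟩
      rw [e, HForm.zero_left, if_pos rfl] at h1
      exact zero_ne_one h1
    have h1 : f x = 1 := eq_one_of_lines hx hv0 ((hfR x).fix _ ⟨W.ee _ _, by rw [W.ef, if_neg h0]⟩)
    have h2 := hfR x
    rw [h1] at h2
    exact h2.unique (H61.LastEven.indep hδ0) H61.LastEven.Rel.one

/-- `PSU_{2m+1}(q)`, `m ≥ 2`: a long node -/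
theorem nb_own_psu_odd (hF : Fintype.card F = q ^ 2) {m : ℕ} (hm : 2 ≤ m) (hN : N = 2 * m + 1) :
    NBall p (PSU N F q) := by
  obtain ⟨W, d, hd, hV0⟩ := exists_wframe_odd hF hN
  obtain ⟨p0, hp0, -⟩ := exists_adm hF W
  have hN3 : 3 ≤ N := by omega
  have hdV : d ∈ W.V0 := by rw [hV0]; exact Submodule.mem_span_singleton_self d
  have hd0 : d ≠ 0 := by
    rintro rfl
    rw [herm_zero_left] at hd
    exact zero_ne_one hd
  refine nball_long (KInstU.model hF hN3 W) (AmbT.of_amb (amb_U hF W) p) hp0 (i := ⟨0, by omega⟩)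
    (by simp only; omega) (v0 := d) hd0 (fun s => ?_) (fun s => ?_)
  · cases s
    · exact W.V0f _ hdV _
    · exact W.V0e _ hdV _
  · cases s
    · exact W.V0f _ hdV _
    · exact W.V0e _ hdV _

/-- **`PSU_N(q)` in its own characteristic, `N ≥ 4`.** -/
theorem nb_own_psu (hF : Fintype.card F = q ^ 2) (hN : 4 ≤ N) : NBall p (PSU N F q) := by
  rcases Nat.even_or_odd' N with ⟨m, hm | hm⟩
  · exact nb_own_psu_even hF (m := m) (by omega) hm
  · exact nb_own_psu_odd hF (m := m) (by omega) hm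

end su

/-! ### orthogonal groups -/

section three

variable {F : Type*} [Field F] [Finite F] {V : Type*} [AddCommGroup V] [Module F V] [Finite V] {H : HForm F V} {n : ℕ}
  {Fr : Frame H (Fin n)} {K : Type u} [Group K] [Finite K] (M : Model Fr K) {p : ℕ} [hp : Fact p.Prime] [CharP F p]
  (hA : AmbT Fr p M.I) {p0 : Fr.Adm} (hp0 : p0.c ≠ 0)

include hA hp0 in
/-- Witt index at least three -/
theorem nball_three (hn : 3 ≤ n) : NBall p K := by
  have h20 : (⟨2, by omega⟩ : Fin n) ≠ ⟨0, by omega⟩ := by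
    intro e
    simpa using congrArg Fin.val e
  have h21 : (⟨2, by omega⟩ : Fin n) ≠ ⟨0 + 1, by omega⟩ := by
    intro e
    simpa using congrArg Fin.val e
  refine nball_long M hA hp0 (i := ⟨0, by omega⟩) (by simp only; omega) (v0 := Fr.b (⟨2, by omega⟩, true)) ?_
    (fun s => H62.FrameSL.hn Fr h20 _ _) (fun s => H62.FrameSL.hn Fr h21 _ _)
  intro e
  have h1 := Cfsg.Agent.H62.FrameSL.ht Fr ⟨2, by omega⟩
  rw [e, HForm.zero_left] at h1
  exact zero_ne_one h1

end three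

section orth

open QuadraticMap
open Cfsg.Agent.LieClassical Cfsg.Agent.LieClassical.OrthCore Cfsg.Agent.LieClassical.OrthTrans
open Cfsg.Agent.LieClassical.OrthSimple Cfsg.Agent.LieClassical.OrthFinite
open Cfsg.Agent.LieClassical.OrthForms
open Cfsg.Agent.TitsThree.KSideO Cfsg.Agent.TitsThree.StdData Cfsg.Agent.Nodes.WittInst

variable {F : Type u} [Field F] [Finite F] {p : ℕ} [hp : Fact p.Prime] [CharP F p]

/-- **`PΩ_{2m+1}(F)` in its own characteristic, `m ≥ 3`.** -/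
theorem nb_own_oodd (h2 : (2 : F) ≠ 0) {m : ℕ} (hm : 3 ≤ m) : NBall p (Cfsg.POmega F (Cfsg.quadFormOdd m F)) := by
  rw [← coe_oddForm]
  have hG : Good (oddForm m F) := by
    apply good_of_finite (nondeg_oddForm m F h2)
    rw [Module.finrank_fintype_fun_eq_card, Fintype.card_sum, Fintype.card_sum, Fintype.card_fin,
      Fintype.card_unit]
    omega
  have hp : ((embOdd m F).ngt ⟨1, -1 ^ 2, rfl⟩).c ≠ 0 := by
    change (1 : F)⁻¹ * (-1 ^ 2) ≠ 0
    simp
  exact nball_three (model (wodd m F) hG ⟨_, hp⟩) (AmbT.of_amb (amb_O_of_two _ h2) p) hp hm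

/-- **`PΩ⁻_{2m+2}(F)` in its own characteristic, `m ≥ 3`.** -/
theorem nb_own_ominus (h2 : (2 : F) ≠ 0) {a b : F}
    (hab : ∀ z₁ z₂ : F, z₁ ^ 2 + a * z₁ * z₂ + b * z₂ ^ 2 = 0 → z₁ = 0 ∧ z₂ = 0) {m : ℕ} (hm : 3 ≤ m) :
    NBall p (Cfsg.POmega F (Cfsg.quadFormMinus m F a b)) := by
  rw [← coe_minusForm]
  have hG : Good (minusForm m F a b) := by
    apply good_of_finite (nondeg_minusForm m F a b hab)
    rw [Module.finrank_fintype_fun_eq_card, Fintype.card_sum, Fintype.card_sum, Fintype.card_fin,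
      Fintype.card_fin]
    omega
  have hp : ((embMinus m F a b hab).ngt ⟨(1, 0), -nf a b (1, 0), rfl⟩).c ≠ 0 := by
    change (1 : F)⁻¹ * (-nf a b (1, 0)) ≠ 0
    simp [nf]
  exact nball_three (model (wminus m F a b hab) hG ⟨_, hp⟩) (AmbT.of_amb (amb_O_of_two _ h2) p) hp hm

end orth

end Cfsg.Agent.H963.RIM
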