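import Cfsg.Agent.H963.RIM.OwnM
import Cfsg.Agent.H963.RIM.OwnA
import Cfsg.Agent.H325.RIM.Surv

/-!
# S4816, RIM-L-OWN: the rows (fields `own_*` of `H325.RIM.RowsNB`; helper963)

`own_psl`, `own_psp`, `own_oodd`, `own_ominus`, and `own_psu_of` (from `PSU_3`).
-/

set_option autoImplicit false

namespace Cfsg.Agent.H963.RIM

open Cfsg Cfsg.Agent.H665.RIM Cfsg.Agent.H325.RIM Cfsg.Agent.OrdDiv Cfsg.Agent.H436

/-- the characteristic from the order of the field -/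
theorem charP_of_dvd {p : ℕ} (hp : p.Prime) (F : Type*) [Field F] [Fintype F] (h : p ∣ Fintype.card F) : CharP F p := by
  obtain ⟨r, hr⟩ := CharP.exists F
  obtain ⟨n, hn, hc⟩ := FiniteField.card F r
  rw [hc] at h
  have h1 := (Nat.prime_dvd_prime_iff_eq hp hn).1 (hp.dvd_of_dvd_pow h)
  rw [h1]
  exact hr

theorem two_ne {p : ℕ} (hp : p.Prime) (hp2 : p ≠ 2) (F : Type*) [Field F] [CharP F p] : (2 : F) ≠ 0 := by
  intro h
  have h1 : ((2 : ℕ) : F) = 0 := by exact_mod_cast h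
  rw [CharP.cast_eq_zero_iff F p] at h1
  exact hp2 ((Nat.prime_dvd_prime_iff_eq hp Nat.prime_two).1 h1)

theorem own_psl : ∀ p n q : ℕ, p.Prime → p ≠ 2 → p ∣ q → 3 ≤ n → NBRow p (.psl n q) := by
  intro p n q hp hp2 hpq hn S _ _ hS _
  obtain ⟨F, _, _, hF, ⟨e⟩⟩ := hS.real
  have hch := charP_of_dvd hp F (by rw [hF]; exact hpq)
  have : Fact p.Prime := ⟨hp⟩
  obtain ⟨l, rfl⟩ : ∃ l, n = l + 1 := ⟨n - 1, by omega⟩
  exact NBall.congr e (nb_own_psl (by omega))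

theorem own_psp : ∀ p m q : ℕ, p.Prime → p ≠ 2 → p ∣ q → NBRow p (.psp m q) := by
  intro p m q hp hp2 hpq S _ _ hS _
  obtain ⟨F, _, _, hF, ⟨e⟩⟩ := hS.real
  have hch := charP_of_dvd hp F (by rw [hF]; exact hpq)
  have : Fact p.Prime := ⟨hp⟩
  have hm : 2 ≤ m := hS.cond.1
  exact NBall.congr e (nb_own_psp hm)

theorem own_oodd : ∀ p m q : ℕ, p.Prime → p ≠ 2 → p ∣ q → NBRow p (.oodd m q) := by
  intro p m q hp hp2 hpq S _ _ hS _
  obtain ⟨F, _, _, hF, ⟨e⟩⟩ := hS.real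
  have hch := charP_of_dvd hp F (by rw [hF]; exact hpq)
  have : Fact p.Prime := ⟨hp⟩
  have hm : 3 ≤ m := hS.cond.1
  exact NBall.congr e (nb_own_oodd (two_ne hp hp2 F) hm)

theorem own_ominus : ∀ p m q : ℕ, p.Prime → p ≠ 2 → p ∣ q → NBRow p (.ominus m q) := by
  intro p m q hp hp2 hpq S _ _ hS _
  obtain ⟨F, _, _, a, b, hF, hab, ⟨e⟩⟩ := hS.real
  have hch := charP_of_dvd hp F (by rw [hF]; exact hpq)
  have : Fact p.Prime := ⟨hp⟩
  have hm : 4 ≤ m := hS.cond.1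
  exact NBall.congr e (nb_own_ominus (two_ne hp hp2 F) hab (by omega))

/-- `own_psu` from the case `PSU_3` -/
theorem own_psu_of (h3 : ∀ (p q : ℕ), p.Prime → p ≠ 2 → p ∣ q → NBRow p (.psu 3 q)) :
    ∀ p n q : ℕ, p.Prime → p ≠ 2 → p ∣ q → NBRow p (.psu n q) := by
  intro p n q hp hp2 hpq S _ _ hS hd
  have hn : 3 ≤ n := hS.cond.1
  by_cases h : n = 3
  · subst h
    exact h3 p q hp hp2 hpq S hS hd
  · obtain ⟨F, _, _, hF, ⟨e⟩⟩ := hS.real
    have hch := charP_of_dvd hp F (by rw [hF]; exact dvd_pow hpq (by norm_num))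
    have : Fact p.Prime := ⟨hp⟩
    exact NBall.congr e (nb_own_psu hF (by omega))

end Cfsg.Agent.H963.RIM
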